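import Cfsg.Agent.Leech.RankThm

/-!
# Transport of the rank theorems to arbitrary configurations
-/

set_option autoImplicit false

namespace Cfsg.Agent.Leech

open Cfsg

theorem conj_fix {G X : Type*} [Group G] [MulAction G X] {g s : G} {u u0 : X} (hg : g • u = u0) (hs : s • u0 = u0) :
    (g⁻¹ * s * g) • u = u := by
  rw [mul_smul, mul_smul, hg, hs, ← hg, inv_smul_smul]

theorem conj_map {G X : Type*} [Group G] [MulAction G X] {g s : G} {x x' : X} (hs : s • (g • x) = g • x') :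
    (g⁻¹ * s * g) • x = x' := by
  rw [mul_smul, mul_smul, hs, inv_smul_smul]

/-- transport of orbits of stabilisers -/
theorem orbit_transport {G X : Type*} [Group G] [MulAction G X] {g : G} {S S' : Subgroup G}
    (h : ∀ s, s ∈ S ↔ g * s * g⁻¹ ∈ S') (p y : X) :
    y ∈ MulAction.orbit S (g⁻¹ • p) ↔ g • y ∈ MulAction.orbit S' p := by
  constructor
  · rintro ⟨s, rfl⟩
    refine ⟨⟨g * s * g⁻¹, (h s).1 s.2⟩, ?_⟩
    show (g * (s : G) * g⁻¹) • p = g • ((s : G) • (g⁻¹ • p))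
    rw [mul_smul, mul_smul]
  · rintro ⟨s, hs⟩
    have hs' : (s : G) • p = g • y := hs
    refine ⟨⟨g⁻¹ * s * g, (h _).2 (by
      have : g * (g⁻¹ * (s : G) * g) * g⁻¹ = s := by group
      rw [this]; exact s.2)⟩, ?_⟩
    show (g⁻¹ * (s : G) * g) • (g⁻¹ • p) = y
    rw [mul_smul, smul_inv_smul, mul_smul, hs', inv_smul_smul]

theorem mem_stab_conj {G X : Type*} [Group G] [MulAction G X] {g s : G} {u u0 : X} (hg : g • u = u0) :
    s ∈ MulAction.stabilizer G u ↔ g * s * g⁻¹ ∈ MulAction.stabilizer G u0 := by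
  rw [MulAction.mem_stabilizer_iff, MulAction.mem_stabilizer_iff, mul_smul, mul_smul, ← hg, inv_smul_smul]
  exact (MulAction.injective g).eq_iff.symm

theorem T3_transport {f1 f2 g1 g2 : leechLattice} {g : Co0} (h1 : g • f1 = g1) (h2 : g • f2 = g2) (t1 t2 : ℤ) :
    (T3 f1 f2 t1 t2).ncard = (T3 g1 g2 t1 t2).ncard := by
  apply ncard_transport g
  intro x
  rw [← h1, ← h2]
  exact smul_mem_T3 g f1 f2 x t1 t2

theorem mem_T3_transport {f1 f2 g1 g2 : leechLattice} {g : Co0} (h1 : g • f1 = g1) (h2 : g • f2 = g2) {t1 t2 : ℤ}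
    (x : leechLattice) : x ∈ T3 f1 f2 t1 t2 ↔ g • x ∈ T3 g1 g2 t1 t2 := by
  rw [← h1, ← h2]
  exact smul_mem_T3 g f1 f2 x t1 t2

/-- transitivity of the joint stabiliser, transported -/
theorem trans_transport {f1 f2 g1 g2 p : leechLattice} {g : Co0} (h1 : g • f1 = g1) (h2 : g • f2 = g2) {t1 t2 : ℤ}
    {S : Subgroup Co0} (hS1 : S ≤ MulAction.stabilizer Co0 g1) (hS2 : S ≤ MulAction.stabilizer Co0 g2)
    (horb : MulAction.orbit S p = T3 g1 g2 t1 t2) {x x' : leechLattice} (hx : x ∈ T3 f1 f2 t1 t2)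
    (hx' : x' ∈ T3 f1 f2 t1 t2) : ∃ k : Co0, k • f1 = f1 ∧ k • f2 = f2 ∧ k • x = x' := by
  rw [mem_T3_transport h1 h2, ← horb] at hx hx'
  obtain ⟨s, hs, hsx⟩ := orbit_pair hx hx'
  exact ⟨g⁻¹ * s * g, conj_fix h1 (hS1 hs), conj_fix h2 (hS2 hs), conj_map hsx⟩

/-- move a triple to standard position -/
theorem triple_std {f1 f2 g1 g2 p : leechLattice} {g : Co0} (h1 : g • f1 = g1) (h2 : g • f2 = g2) {t1 t2 : ℤ}
    {S : Subgroup Co0} (hS1 : S ≤ MulAction.stabilizer Co0 g1) (hS2 : S ≤ MulAction.stabilizer Co0 g2)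
    (horb : MulAction.orbit S p = T3 g1 g2 t1 t2) {x : leechLattice} (hx : x ∈ T3 f1 f2 t1 t2) :
    ∃ k : Co0, k • f1 = g1 ∧ k • f2 = g2 ∧ k • x = p := by
  rw [mem_T3_transport h1 h2, ← horb] at hx
  obtain ⟨s, hs, hsx⟩ := orbit_pair hx (MulAction.mem_orbit_self p)
  refine ⟨s * g, ?_, ?_, ?_⟩
  · rw [mul_smul, h1]; exact hS1 hs
  · rw [mul_smul, h2]; exact hS2 hs
  · rw [mul_smul, hsx]

/-! ### The McLaughlin configuration -/

theorem mcl_set (u v : leechLattice) (hu : sqNorm (u : GolayPt → ℤ) = 48) :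
    {x : leechLattice | sqNorm (x : GolayPt → ℤ) = 32 ∧ sqNorm ((u - x) : GolayPt → ℤ) = 32 ∧
      dotInt (v : GolayPt → ℤ) (x : GolayPt → ℤ) = 16} = T3 u v 24 16 := by
  ext x
  unfold T3
  simp only [Set.mem_ofPred_eq]
  have h := sqNorm_sub (u : GolayPt → ℤ) (x : GolayPt → ℤ)
  constructor
  · rintro ⟨h1, h2, h3⟩
    rw [h2, hu, h1] at h
    exact ⟨h1, by omega, h3⟩
  · rintro ⟨h1, h2, h3⟩
    rw [hu, h1, h2] at h
    exact ⟨h1, by omega, h3⟩

theorem mcl_std (u v : leechLattice) (hu : sqNorm (u : GolayPt → ℤ) = 48)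
    (hv : sqNorm (v : GolayPt → ℤ) = 32 ∧ sqNorm ((u - v) : GolayPt → ℤ) = 32) :
    ∃ g : Co0, g • u = Spor.leechV ∧ g • v = -Spor.leechU := by
  obtain ⟨g, hg⟩ := trans_48 u Spor.leechV hu norm_leechV
  obtain ⟨h, h1, h2⟩ := trans_552 Spor.leechV (g • v) (-Spor.leechU) norm_leechV
    ⟨by rw [co0_norm, hv.1], by rw [← hg, ← co0_sub, co0_norm, AddSubgroup.coe_sub, hv.2]⟩
    ⟨by decide +kernel, by decide +kernel⟩
  exact ⟨h * g, by rw [mul_smul, hg, h1], by rw [mul_smul, h2]⟩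

theorem s1580 (u v : leechLattice) (hu : sqNorm (u : GolayPt → ℤ) = 48)
    (hv : sqNorm (v : GolayPt → ℤ) = 32 ∧ sqNorm ((u - v) : GolayPt → ℤ) = 32) :
    (T3 u v 24 16).ncard = 275 ∧ ∀ x ∈ T3 u v 24 16, ∀ x' ∈ T3 u v 24 16, ∃ g : Co0, g • u = u ∧ g • v = v ∧ g • x = x' := by
  obtain ⟨g, h1, h2⟩ := mcl_std u v hu hv
  refine ⟨by rw [T3_transport h1 h2, T275_ncard], fun x hx x' hx' => ?_⟩
  exact trans_transport h1 h2 stMcL_V stMcL_mU T275_orbit hx hx'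

theorem s1581 (u v x : leechLattice) (hu : sqNorm (u : GolayPt → ℤ) = 48)
    (hv : sqNorm (v : GolayPt → ℤ) = 32 ∧ sqNorm ((u - v) : GolayPt → ℤ) = 32) (hx : x ∈ T3 u v 24 16) :
    {y | y ∈ T3 u v 24 16 ∧ dotInt (x : GolayPt → ℤ) (y : GolayPt → ℤ) = 8}.ncard = 112 ∧
    {y | y ∈ T3 u v 24 16 ∧ y ≠ x ∧ dotInt (x : GolayPt → ℤ) (y : GolayPt → ℤ) = 16}.ncard = 162 ∧
    ∀ y ∈ T3 u v 24 16, ∀ y' ∈ T3 u v 24 16, y ≠ x → y' ≠ x → dotInt (x : GolayPt → ℤ) (y : GolayPt → ℤ) =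
      dotInt (x : GolayPt → ℤ) (y' : GolayPt → ℤ) → ∃ g : Co0, g • u = u ∧ g • v = v ∧ g • x = x ∧ g • y = y' := by
  obtain ⟨g0, h10, h20⟩ := mcl_std u v hu hv
  obtain ⟨g, h1, h2, h3⟩ := triple_std h10 h20 stMcL_V stMcL_mU T275_orbit hx
  obtain ⟨⟨n1, n2⟩, hcov, c1, c2⟩ := rank_275
  have hd : ∀ y : leechLattice, dotInt (p275 : GolayPt → ℤ) ((g • y : leechLattice) : GolayPt → ℤ) =
      dotInt (x : GolayPt → ℤ) (y : GolayPt → ℤ) := by
    intro y; rw [← h3, co0_dot]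
  refine ⟨?_, ?_, ?_⟩
  · rw [← n1, ← c1]
    apply ncard_transport g
    intro y
    show (y ∈ T3 u v 24 16 ∧ _) ↔ (g • y ∈ T3 Spor.leechV (-Spor.leechU) 24 16 ∧ _)
    rw [mem_T3_transport h1 h2, hd]
  · rw [← n2, ← c2]
    apply ncard_transport g
    intro y
    show (y ∈ T3 u v 24 16 ∧ _) ↔ (g • y ∈ T3 Spor.leechV (-Spor.leechU) 24 16 ∧ _)
    rw [mem_T3_transport h1 h2, hd]
    constructor
    · rintro ⟨a, _, b⟩; exact ⟨a, b⟩
    · rintro ⟨a, b⟩
      refine ⟨a, ?_, b⟩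
      rintro rfl
      rw [dotInt_self, hx.1] at b
      omega
  · intro y hy y' hy' hne hne' hdd
    rw [mem_T3_transport h1 h2] at hy hy'
    have e1 : g • y ≠ p275 := fun h => hne (MulAction.injective g (h.trans h3.symm))
    have e2 : g • y' ≠ p275 := fun h => hne' (MulAction.injective g (h.trans h3.symm))
    have d1 : ∀ z ∈ MulAction.orbit stMcL275 p112, dotInt (p275 : GolayPt → ℤ) (z : GolayPt → ℤ) = 8 := by
      intro z hz; rw [← c1] at hz; exact hz.2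
    have d2 : ∀ z ∈ MulAction.orbit stMcL275 p162, dotInt (p275 : GolayPt → ℤ) (z : GolayPt → ℤ) = 16 := by
      intro z hz; rw [← c2] at hz; exact hz.2
    have key : ∃ s ∈ stMcL275, s • (g • y) = g • y' := by
      rw [← hd, ← hd] at hdd
      rcases hcov _ hy e1 with a | a <;> rcases hcov _ hy' e2 with b | b
      · exact orbit_pair a b
      · rw [d1 _ a, d2 _ b] at hdd; omega
      · rw [d2 _ a, d1 _ b] at hdd; omega
      · exact orbit_pair a b
    obtain ⟨s, hs, hsy⟩ := key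
    exact ⟨g⁻¹ * s * g, conj_fix h1 (stMcL_V (stMcL275_le hs)), conj_fix h2 (stMcL_mU (stMcL275_le hs)),
      conj_fix h3 hs.2, conj_map hsy⟩

/-! ### The Higman–Sims configuration -/

theorem norm_wHS : sqNorm (wHS : GolayPt → ℤ) = 48 := by decide +kernel
theorem dot_V_wHS : dotInt (Spor.leechV : GolayPt → ℤ) (wHS : GolayPt → ℤ) = -32 := by decide +kernel

theorem hs_std (v w : leechLattice) (hv : sqNorm (v : GolayPt → ℤ) = 48) (hw : sqNorm (w : GolayPt → ℤ) = 48)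
    (hvw : dotInt (v : GolayPt → ℤ) (w : GolayPt → ℤ) = -32) : ∃ g : Co0, g • v = Spor.leechV ∧ g • w = wHS :=
  trans_pair_48_48 v w Spor.leechV wHS hv hw norm_leechV norm_wHS hvw dot_V_wHS

theorem s1583 (v w : leechLattice) (hv : sqNorm (v : GolayPt → ℤ) = 48) (hw : sqNorm (w : GolayPt → ℤ) = 48)
    (hvw : dotInt (v : GolayPt → ℤ) (w : GolayPt → ℤ) = -32) :
    (T3 v w 24 (-24)).ncard = 100 ∧ ∀ x ∈ T3 v w 24 (-24), ∀ x' ∈ T3 v w 24 (-24),
      ∃ g : Co0, g • v = v ∧ g • w = w ∧ g • x = x' := by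
  obtain ⟨g, h1, h2⟩ := hs_std v w hv hw hvw
  refine ⟨by rw [T3_transport h1 h2, T100_ncard], fun x hx x' hx' => ?_⟩
  exact trans_transport h1 h2 stHS_V stHS_w T100_orbit hx hx'

theorem s1584 (v w x : leechLattice) (hv : sqNorm (v : GolayPt → ℤ) = 48) (hw : sqNorm (w : GolayPt → ℤ) = 48)
    (hvw : dotInt (v : GolayPt → ℤ) (w : GolayPt → ℤ) = -32) (hx : x ∈ T3 v w 24 (-24)) :
    {y | y ∈ T3 v w 24 (-24) ∧ dotInt (x : GolayPt → ℤ) (y : GolayPt → ℤ) = 8}.ncard = 22 ∧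
    {y | y ∈ T3 v w 24 (-24) ∧ y ≠ x ∧ dotInt (x : GolayPt → ℤ) (y : GolayPt → ℤ) ≠ 8}.ncard = 77 ∧
    ∀ y ∈ T3 v w 24 (-24), ∀ y' ∈ T3 v w 24 (-24), y ≠ x → y' ≠ x → (dotInt (x : GolayPt → ℤ) (y : GolayPt → ℤ) = 8 ↔
      dotInt (x : GolayPt → ℤ) (y' : GolayPt → ℤ) = 8) → ∃ g : Co0, g • v = v ∧ g • w = w ∧ g • x = x ∧ g • y = y' := by
  obtain ⟨g0, h10, h20⟩ := hs_std v w hv hw hvw
  obtain ⟨g, h1, h2, h3⟩ := triple_std h10 h20 stHS_V stHS_w T100_orbit hx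
  obtain ⟨⟨n1, n2⟩, hcov, c1, c2⟩ := rank_100
  have hd : ∀ y : leechLattice, dotInt (p100 : GolayPt → ℤ) ((g • y : leechLattice) : GolayPt → ℤ) =
      dotInt (x : GolayPt → ℤ) (y : GolayPt → ℤ) := by
    intro y; rw [← h3, co0_dot]
  have d1 : ∀ z ∈ MulAction.orbit stHS100 p22, dotInt (p100 : GolayPt → ℤ) (z : GolayPt → ℤ) = 8 := by
    intro z hz; rw [← c1] at hz; exact hz.2
  have d2 : ∀ z ∈ MulAction.orbit stHS100 p77, dotInt (p100 : GolayPt → ℤ) (z : GolayPt → ℤ) = 16 := by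
    intro z hz; rw [← c2] at hz; exact hz.2
  have hne1 : ∀ y : leechLattice, y ≠ x ↔ g • y ≠ p100 := by
    intro y
    rw [← h3]
    exact (MulAction.injective g).ne_iff.symm
  refine ⟨?_, ?_, ?_⟩
  · refine Eq.trans ?_ n1
    rw [← c1]
    apply ncard_transport g
    intro y
    show (y ∈ T3 v w 24 (-24) ∧ _) ↔ (g • y ∈ T3 Spor.leechV wHS 24 (-24) ∧ _)
    rw [mem_T3_transport h1 h2, hd]
  · refine Eq.trans ?_ n2
    rw [← c2]
    apply ncard_transport g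
    intro y
    show (y ∈ T3 v w 24 (-24) ∧ _) ↔ (g • y ∈ T3 Spor.leechV wHS 24 (-24) ∧ _)
    rw [mem_T3_transport h1 h2, ← hd, hne1]
    constructor
    · rintro ⟨a, b, c⟩
      refine ⟨a, ?_⟩
      rcases hcov _ a b with k | k
      · exact absurd (d1 _ k) c
      · exact d2 _ k
    · rintro ⟨a, b⟩
      refine ⟨a, ?_, by rw [b]; norm_num⟩
      intro h
      rw [h, dotInt_self, norm_p100] at b
      omega
  · intro y hy y' hy' hne hne' hdd
    rw [mem_T3_transport h1 h2] at hy hy'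
    rw [hne1] at hne hne'
    have key : ∃ s ∈ stHS100, s • (g • y) = g • y' := by
      rw [← hd, ← hd] at hdd
      rcases hcov _ hy hne with a | a <;> rcases hcov _ hy' hne' with b | b
      · exact orbit_pair a b
      · rw [d1 _ a, d2 _ b] at hdd; omega
      · rw [d2 _ a, d1 _ b] at hdd; omega
      · exact orbit_pair a b
    obtain ⟨s, hs, hsy⟩ := key
    exact ⟨g⁻¹ * s * g, conj_fix h1 (stHS_V (stHS100_le hs)), conj_fix h2 (stHS_w (stHS100_le hs)),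
      conj_fix h3 hs.2, conj_map hsy⟩

/-! ### 2025 points -/

theorem mcl2_std (v w : leechLattice) (hv : sqNorm (v : GolayPt → ℤ) = 32) (hw : sqNorm (w : GolayPt → ℤ) = 32)
    (hvw : dotInt (v : GolayPt → ℤ) (w : GolayPt → ℤ) = -8) : ∃ g : Co0, g • v = -Spor.leechU ∧ g • w = wMcL :=
  trans_pair_8 v w (-Spor.leechU) wMcL hv hw (by decide +kernel) (by decide +kernel) hvw (by decide +kernel)

theorem stMcL2025_eq : MulAction.stabilizer Co0 (-Spor.leechU) ⊓ MulAction.stabilizer Co0 wMcL ⊓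
    MulAction.stabilizer Co0 p2025 = stMcL2025 := by
  ext g
  constructor
  · rintro ⟨⟨h1, h2⟩, h3⟩
    have h1' : g • (-Spor.leechU) = -Spor.leechU := h1
    have h2' : g • wMcL = wMcL := h2
    have h4 : g • Spor.leechU = Spor.leechU := by
      have := stab_neg h1'
      rwa [neg_neg] at this
    have h5 : g • Spor.leechV = Spor.leechV := by
      have : Spor.leechV = wMcL - Spor.leechU := by unfold wMcL; abel
      rw [this, co0_sub, h2', h4]
    exact ⟨⟨h5, h4⟩, h3⟩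
  · intro h
    exact ⟨⟨stMcL_mU (stMcL2025_le h), stMcL_w (stMcL2025_le h)⟩, h.2⟩

theorem s1634 (v w : leechLattice) (hv : sqNorm (v : GolayPt → ℤ) = 32) (hw : sqNorm (w : GolayPt → ℤ) = 32)
    (hvw : dotInt (v : GolayPt → ℤ) (w : GolayPt → ℤ) = -8) :
    (T3 v w 0 16).ncard = 2025 ∧ (∀ x ∈ T3 v w 0 16, ∀ x' ∈ T3 v w 0 16, ∃ g : Co0, g • v = v ∧ g • w = w ∧ g • x = x') ∧
    ∀ x ∈ T3 v w 0 16, ∃ y₁ ∈ T3 v w 0 16, ∃ y₂ ∈ T3 v w 0 16, ∃ y₃ ∈ T3 v w 0 16,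
      (MulAction.orbit ↥(MulAction.stabilizer Co0 v ⊓ MulAction.stabilizer Co0 w ⊓ MulAction.stabilizer Co0 x) y₁).ncard = 330 ∧
      (MulAction.orbit ↥(MulAction.stabilizer Co0 v ⊓ MulAction.stabilizer Co0 w ⊓ MulAction.stabilizer Co0 x) y₂).ncard = 462 ∧
      (MulAction.orbit ↥(MulAction.stabilizer Co0 v ⊓ MulAction.stabilizer Co0 w ⊓ MulAction.stabilizer Co0 x) y₃).ncard = 1232 := by
  obtain ⟨g0, h10, h20⟩ := mcl2_std v w hv hw hvw
  refine ⟨by rw [T3_transport h10 h20, T2025_ncard], fun x hx x' hx' =>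
    trans_transport h10 h20 stMcL_mU stMcL_w T2025_orbit hx hx', ?_⟩
  intro x hx
  obtain ⟨g, h1, h2, h3⟩ := triple_std h10 h20 stMcL_mU stMcL_w T2025_orbit hx
  have hconj : ∀ s, s ∈ MulAction.stabilizer Co0 v ⊓ MulAction.stabilizer Co0 w ⊓ MulAction.stabilizer Co0 x ↔
      g * s * g⁻¹ ∈ stMcL2025 := by
    intro s
    rw [← stMcL2025_eq]
    simp only [Subgroup.mem_inf]
    rw [mem_stab_conj h1, mem_stab_conj h2, mem_stab_conj h3]
  have hmem : ∀ p : leechLattice, p ∈ T3 (-Spor.leechU) wMcL 0 16 → g⁻¹ • p ∈ T3 v w 0 16 := by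
    intro p hp
    rw [mem_T3_transport h1 h2, smul_inv_smul]
    exact hp
  have hcard : ∀ p : leechLattice, (MulAction.orbit ↥(MulAction.stabilizer Co0 v ⊓ MulAction.stabilizer Co0 w ⊓
      MulAction.stabilizer Co0 x) (g⁻¹ • p)).ncard = (MulAction.orbit stMcL2025 p).ncard := by
    intro p
    exact ncard_transport g _ _ (orbit_transport hconj p)
  refine ⟨g⁻¹ • p330, hmem _ ⟨norm_p330, by decide +kernel, by decide +kernel⟩,
    g⁻¹ • p462, hmem _ ⟨norm_p462, by decide +kernel, by decide +kernel⟩,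
    g⁻¹ • p1232, hmem _ ⟨norm_p1232, by decide +kernel, by decide +kernel⟩, ?_, ?_, ?_⟩
  · rw [hcard]; exact rank_2025.1
  · rw [hcard]; exact rank_2025.2.1
  · rw [hcard]; exact rank_2025.2.2

/-! ### 11178 points -/

theorem s1641 (u x : leechLattice) (hu : sqNorm (u : GolayPt → ℤ) = 48) (hx : x ∈ T3 u u (-16) (-16)) :
    ∃ y₁ ∈ T3 u u (-16) (-16), ∃ y₂ ∈ T3 u u (-16) (-16), ∃ y₃ ∈ T3 u u (-16) (-16), ∃ y₄ ∈ T3 u u (-16) (-16),
      (MulAction.orbit ↥(MulAction.stabilizer Co0 u ⊓ MulAction.stabilizer Co0 x) y₁).ncard = 352 ∧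
      (MulAction.orbit ↥(MulAction.stabilizer Co0 u ⊓ MulAction.stabilizer Co0 x) y₂).ncard = 1100 ∧
      (MulAction.orbit ↥(MulAction.stabilizer Co0 u ⊓ MulAction.stabilizer Co0 x) y₃).ncard = 4125 ∧
      (MulAction.orbit ↥(MulAction.stabilizer Co0 u ⊓ MulAction.stabilizer Co0 x) y₄).ncard = 5600 ∧
      T3 u u (-16) (-16) = {x} ∪ MulAction.orbit ↥(MulAction.stabilizer Co0 u ⊓ MulAction.stabilizer Co0 x) y₁ ∪
        MulAction.orbit ↥(MulAction.stabilizer Co0 u ⊓ MulAction.stabilizer Co0 x) y₂ ∪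
        MulAction.orbit ↥(MulAction.stabilizer Co0 u ⊓ MulAction.stabilizer Co0 x) y₃ ∪
        MulAction.orbit ↥(MulAction.stabilizer Co0 u ⊓ MulAction.stabilizer Co0 x) y₄ := by
  obtain ⟨g, h1, h2⟩ := trans_pair_48 u x Spor.leechV Spor.leechU' hu hx.1 norm_leechV norm_leechU' hx.2.1 (by decide +kernel)
  have hconj : ∀ s, s ∈ MulAction.stabilizer Co0 u ⊓ MulAction.stabilizer Co0 x ↔ g * s * g⁻¹ ∈ stHS := by
    intro s
    unfold stHS
    simp only [Subgroup.mem_inf]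
    rw [mem_stab_conj h1, mem_stab_conj h2]
  have hcard : ∀ p : leechLattice, (MulAction.orbit ↥(MulAction.stabilizer Co0 u ⊓ MulAction.stabilizer Co0 x)
      (g⁻¹ • p)).ncard = (MulAction.orbit stHS p).ncard := by
    intro p
    exact ncard_transport g _ _ (orbit_transport hconj p)
  obtain ⟨⟨n1, n2, n3, n4⟩, ⟨s1, s2, s3, s4⟩, hcov⟩ := rank_11178
  have hmem : ∀ p : leechLattice, MulAction.orbit stHS p ⊆ T3 Spor.leechV Spor.leechV (-16) (-16) →
      g⁻¹ • p ∈ T3 u u (-16) (-16) := by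
    intro p hp
    rw [mem_T3_transport h1 h1, smul_inv_smul]
    exact hp (MulAction.mem_orbit_self p)
  refine ⟨g⁻¹ • p352, hmem _ s1, g⁻¹ • p1100, hmem _ s2, g⁻¹ • p4125, hmem _ s3, g⁻¹ • p5600, hmem _ s4,
    by rw [hcard]; exact n1, by rw [hcard]; exact n2, by rw [hcard]; exact n3, by rw [hcard]; exact n4, ?_⟩
  ext y
  simp only [Set.mem_union, Set.mem_singleton_iff]
  rw [orbit_transport hconj, orbit_transport hconj, orbit_transport hconj, orbit_transport hconj, mem_T3_transport h1 h1]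
  constructor
  · intro hy
    by_cases hne : y = x
    · exact Or.inl (Or.inl (Or.inl (Or.inl hne)))
    · have hne' : g • y ≠ Spor.leechU' := by
        rw [← h2]; exact fun h => hne (MulAction.injective g h)
      rcases hcov _ hy hne' with h | h | h | h
      · exact Or.inl (Or.inl (Or.inl (Or.inr h)))
      · exact Or.inl (Or.inl (Or.inr h))
      · exact Or.inl (Or.inr h)
      · exact Or.inr h
  · rintro ((((h | h) | h) | h) | h)
    · rw [h]; exact (mem_T3_transport h1 h1 x).1 hx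
    · exact s1 h
    · exact s2 h
    · exact s3 h
    · exact s4 h

/-! ### The fixed point free involution -/

theorem hsi0_ne_one : matElt hsi0R hsi0C hsi0M ≠ 1 := by
  intro h
  have h1 := matElt_apply hsi0R hsi0C hsi0M (⟨Pi.single none 8, mem_of_test (by decide +kernel)⟩ : leechLattice)
  rw [h] at h1
  have h2 : ¬ ∀ p : GolayPt, 8 * (Pi.single none 8 : GolayPt → ℤ) p = act8 hsi0R (Pi.single none 8) p := by decide +kernel
  exact h2 (fun p => by rw [← h1 p, one_smul])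

theorem hsi0_move : allK (fun j => !(fixC (hsi0Q, hsi0K) (cd o100G j))) 100 = true := by decide +kernel

theorem s1642 (v w : leechLattice) (hv : sqNorm (v : GolayPt → ℤ) = 48) (hw : sqNorm (w : GolayPt → ℤ) = 48)
    (hvw : dotInt (v : GolayPt → ℤ) (w : GolayPt → ℤ) = -32) :
    ∃ g : Co0, g • v = v ∧ g • w = w ∧ orderOf g = 2 ∧ ∀ x ∈ T3 v w 24 (-24), g • x ≠ x := by
  obtain ⟨g, h1, h2⟩ := hs_std v w hv hw hvw
  have hmem : matElt hsi0R hsi0C hsi0M ∈ stHS := ⟨hsi0_f0, hsi0_f1⟩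
  have hsq : matElt hsi0R hsi0C hsi0M * matElt hsi0R hsi0C hsi0M = 1 := matElt_sq hsi0R hsi0M
  refine ⟨g⁻¹ * matElt hsi0R hsi0C hsi0M * g, conj_fix h1 (stHS_V hmem), conj_fix h2 (stHS_w hmem), ?_, ?_⟩
  · apply orderOf_eq_prime
    · rw [sq]
      have : g⁻¹ * matElt hsi0R hsi0C hsi0M * g * (g⁻¹ * matElt hsi0R hsi0C hsi0M * g) =
          g⁻¹ * (matElt hsi0R hsi0C hsi0M * matElt hsi0R hsi0C hsi0M) * g := by group
      rw [this, hsq]
      group
    · intro h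
      apply hsi0_ne_one
      have : matElt hsi0R hsi0C hsi0M = g * (g⁻¹ * matElt hsi0R hsi0C hsi0M * g) * g⁻¹ := by group
      rw [this, h]
      group
  · intro x hx h
    rw [mem_T3_transport h1 h2] at hx
    obtain ⟨j, hj, hjx⟩ := orbit_list stHS p100 rfl (by rw [norm_p100]; norm_num) hsg_gens o100_ok
      (T3_finite _ _ _ _) T100_ncard T100_sub (g • x) hx
    have h3 : matElt hsi0R hsi0C hsi0M • (g • x) = g • x := by
      rw [mul_smul, mul_smul] at h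
      conv_rhs => rw [← h]
      rw [smul_inv_smul]
    have h4 := app_of_eq hsi0M hsi0P (d := cd o100G j) (cd_lt _ _) hjx (by rw [h3]; exact hjx)
    have h5 := allK_iff.1 hsi0_move j hj
    have h6 : fixC (hsi0Q, hsi0K) (cd o100G j) = true := h4
    rw [h6] at h5
    exact absurd h5 (by decide)

end Cfsg.Agent.Leech
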